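import Cfsg.Agent.H275.Co3.LiftCB
import Cfsg.Agent.H169.Co3.Dvd8
import Cfsg.Agent.H415.C3.KitOf
import Cfsg.Agent.H754.Co3.Rep
import Cfsg.Agent.H129.Co3.Faith
import Cfsg.Agent.H318.Four.E6Inv
import Cfsg.Agent.H944.E6Tab
import Cfsg.Agent.H65.E6Ext

/-!
# S1920: the groups covered by subgroups of the 27-dimensional group of type `E₆` (helper129)

* `eigRep` : the representation of `C(z)` on an eigenspace of `z`;
* `setup` : if a subgroup `S` of `Zgrp K` contains a kit, then the `(-1)`-eigenspace of `z` on the 27-dimensional module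
  has dimension 16, and `C_S(z)` is faithful on it;
* `lift_cb` : the configuration lifts to `S` if `G` is a quotient of `S` by central scalars;
* `kill5` : no configuration in `G` if `p ≥ 5`.
-/

set_option autoImplicit false
set_option linter.unusedSectionVars false

open Subgroup Module

namespace Cfsg.Agent.H129.Co3

open Cfsg Cfsg.Lie
open Cfsg.Agent.ChevalleyStructure.E6Min.Tables Cfsg.Agent.ChevalleyStructure.E6Min.Basic
  Cfsg.Agent.ChevalleyStructure.E6Min.Adjoint
open Cfsg.Agent.H163.E6 (V)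
open Cfsg.Agent.H944.E6T (jm coe_jm jm_injective ev_V)
open Cfsg.Agent.H952.F4 (ev)
open Cfsg.Agent.H415.C3 (Kit)
open Cfsg.Agent.H13.Co3 (CB)

/-! ### the representation on an eigenspace -/

section eig

variable {k M G : Type*} [Field k] [AddCommGroup M] [Module k M] [Group G] (R : Representation k G M) (z : G) (μ : k)

theorem eig_mem {g : G} (hg : g ∈ centralizer ({z} : Set G)) {v : M} (hv : v ∈ Module.End.eigenspace (R z) μ) :
    R g v ∈ Module.End.eigenspace (R z) μ := by
  rw [Module.End.mem_eigenspace_iff] at hv ⊢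
  rw [mem_centralizer_singleton_iff] at hg
  have h1 : R z (R g v) = R g (R z v) := by
    rw [← Module.End.mul_apply, ← map_mul, ← hg, map_mul, Module.End.mul_apply]
  rw [h1, hv, map_smul]

/-- the representation of the centralizer of `z` on an eigenspace of `z` -/
noncomputable def eigRep : ↥(centralizer ({z} : Set G)) →*
    (↥(Module.End.eigenspace (R z) μ) ≃ₗ[k] ↥(Module.End.eigenspace (R z) μ)) where
  toFun g := LinearEquiv.ofLinearMap ((R g).restrict fun _ hv => eig_mem R z μ g.2 hv)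
    ((R g⁻¹).restrict fun _ hv => eig_mem R z μ (inv_mem g.2) hv)
    (by
      ext v
      show R g (R (g⁻¹ : G) v) = v
      rw [← Module.End.mul_apply, ← map_mul, mul_inv_cancel, map_one, Module.End.one_apply])
    (by
      ext v
      show R (g⁻¹ : G) (R g v) = v
      rw [← Module.End.mul_apply, ← map_mul, inv_mul_cancel, map_one, Module.End.one_apply])
  map_one' := by
    ext v
    show R 1 (v : M) = v
    rw [map_one, Module.End.one_apply]
  map_mul' a b := by
    ext v
    show R (a * b : G) (v : M) = R (a : G) (R (b : G) v)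
    rw [map_mul, Module.End.mul_apply]

theorem eigRep_apply (g : ↥(centralizer ({z} : Set G))) (v : ↥(Module.End.eigenspace (R z) μ)) :
    ((eigRep R z μ g v : ↥(Module.End.eigenspace (R z) μ)) : M) = R (g : G) (v : M) := rfl

/-- eigenvalues of a root of `z` on the `(-1)`-eigenspace of `z` -/
theorem eig_transfer {g : ↥(centralizer ({z} : Set G))} {m : ℕ} (hm : (g : G) ^ m = z) {e : ℤ} (heo : Odd e)
    (hself : ∀ l, Module.End.HasEigenvalue (R (g : G)) l → Module.End.HasEigenvalue (R (g : G)) (l ^ e)) {l : k}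
    (hl : Module.End.HasEigenvalue ((eigRep R z (-1) g : ↥(Module.End.eigenspace (R z) (-1)) ≃ₗ[k] ↥(Module.End.eigenspace (R z) (-1))) :
      ↥(Module.End.eigenspace (R z) (-1)) →ₗ[k] ↥(Module.End.eigenspace (R z) (-1))) l) :
    Module.End.HasEigenvalue ((eigRep R z (-1) g : ↥(Module.End.eigenspace (R z) (-1)) ≃ₗ[k] ↥(Module.End.eigenspace (R z) (-1))) :
      ↥(Module.End.eigenspace (R z) (-1)) →ₗ[k] ↥(Module.End.eigenspace (R z) (-1))) (l ^ e) := by
  obtain ⟨v, hv⟩ := hl.exists_hasEigenvector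
  obtain ⟨hv1, hv0⟩ := hv
  rw [Module.End.mem_eigenspace_iff] at hv1
  have hv2 : R (g : G) (v : M) = l • (v : M) := congrArg Subtype.val hv1
  have hv0' : (v : M) ≠ 0 := fun h => hv0 (Subtype.ext h)
  have hpow : ∀ (c : k) (u : M), R (g : G) u = c • u → R z u = c ^ m • u := by
    intro c u hu
    rw [← hm, map_pow]
    clear hm
    induction m with
    | zero => rw [pow_zero, pow_zero, one_smul, Module.End.one_apply]
    | succ m ih => rw [pow_succ', Module.End.mul_apply, ih, map_smul, hu, smul_smul, pow_succ]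
  have hlm : l ^ m = -1 := by
    have h6 := hpow l v hv2
    rw [Module.End.mem_eigenspace_iff.1 v.2] at h6
    exact (smul_left_injective k hv0' h6).symm
  obtain ⟨w, hw⟩ := (hself l (Module.End.hasEigenvalue_of_hasEigenvector
    ⟨Module.End.mem_eigenspace_iff.2 hv2, hv0'⟩)).exists_hasEigenvector
  obtain ⟨hw1, hw0⟩ := hw
  rw [Module.End.mem_eigenspace_iff] at hw1
  have hwz : w ∈ Module.End.eigenspace (R z) (-1) := by
    rw [Module.End.mem_eigenspace_iff, hpow _ w hw1, ← zpow_natCast, ← zpow_mul, mul_comm, zpow_mul, zpow_natCast, hlm,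
      heo.neg_one_zpow]
  refine Module.End.hasEigenvalue_of_hasEigenvector (x := ⟨w, hwz⟩) ⟨?_, fun h => hw0 (congrArg Subtype.val h)⟩
  rw [Module.End.mem_eigenspace_iff]
  exact Subtype.ext hw1

end eig

/-! ### the dimension -/

section dim

variable {K : Type} [Field K]

theorem eq_zero_of_rank {n : Type*} [Fintype n] [DecidableEq n] {M : Matrix n n K} (h : M.rank = 0) : M = 0 := by
  have h1 : LinearMap.range M.mulVecLin = ⊥ := Submodule.finrank_eq_zero.1 h
  have h2 := LinearMap.range_eq_bot.1 h1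
  ext i j
  have h3 := congrFun (LinearMap.congr_fun h2 (Pi.single j 1)) i
  simpa using h3

/-- for an involution the dimension of the `(-1)`-eigenspace is the rank of `z - 1` -/
theorem ev_neg (h2 : (2 : K) ≠ 0) {z : Zgrp K} (hzz : z * z = 1) :
    ev (V K z) (-1) = (((z : GL I27 K) : Matrix I27 I27 K) - 1).rank := by
  have hz : ∀ v, V K z (V K z v) = v := by
    intro v
    rw [← Module.End.mul_apply, ← map_mul, hzz, map_one, Module.End.one_apply]
  have h1 : Module.End.eigenspace (V K z) (-1) = LinearMap.range ((V K z : Module.End K (I27 → K)) - 1) := by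
    ext v
    rw [Module.End.mem_eigenspace_iff, LinearMap.mem_range]
    constructor
    · intro h
      refine ⟨(-(2 : K)⁻¹) • v, ?_⟩
      rw [LinearMap.sub_apply, map_smul, h, Module.End.one_apply, smul_smul, ← sub_smul]
      have : -(2 : K)⁻¹ * -1 - -(2 : K)⁻¹ = 1 := by
        field_simp
        ring
      rw [this, one_smul]
    · rintro ⟨w, rfl⟩
      rw [LinearMap.sub_apply, Module.End.one_apply, map_sub, hz, neg_one_smul]
      abel
  unfold ev
  rw [h1]
  have h3 : ((V K z : Module.End K (I27 → K)) - 1) =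
      Matrix.toLin' (((z : GL I27 K) : Matrix I27 I27 K) - 1) := by
    rw [map_sub, Matrix.toLin'_one]
    rfl
  rw [h3, Matrix.rank, Matrix.toLin'_apply']

end dim

/-! ### the kill -/

section kill

/-- the 27-dimensional module over the algebraic closure -/
noncomputable abbrev RR (K : Type) [Field K] (S : Subgroup ↥(Zgrp K)) :
    Representation (AlgebraicClosure K) ↥S (I27 → AlgebraicClosure K) :=
  MonoidHom.comp (V (AlgebraicClosure K)) ((jm (algebraMap K (AlgebraicClosure K))).comp S.subtype)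

variable {K : Type} [Field K]

theorem RR_map (S : Subgroup ↥(Zgrp K)) (g : ↥S) (v : I27 → K) :
    RR K S g (fun i => algebraMap K (AlgebraicClosure K) (v i)) =
      fun i => algebraMap K (AlgebraicClosure K) ((((g : ↥(Zgrp K)) : GL I27 K) : Matrix I27 I27 K).mulVec v i) := by
  show (((jm (algebraMap K (AlgebraicClosure K)) (g : ↥(Zgrp K)) : ↥(Zgrp (AlgebraicClosure K))) :
    GL I27 (AlgebraicClosure K)) : Matrix I27 I27 (AlgebraicClosure K)).mulVec _ = _
  rw [coe_jm]
  funext i
  rw [Matrix.mulVec, Matrix.mulVec, dotProduct, dotProduct, map_sum]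
  exact Finset.sum_congr rfl fun j _ => by rw [Matrix.map_apply, map_mul]

theorem finrank_eig (h2 : (2 : K) ≠ 0) (S : Subgroup ↥(Zgrp K)) {z : ↥S} (hzz : z * z = 1) :
    finrank (AlgebraicClosure K) ↥(Module.End.eigenspace (RR K S z) (-1)) =
      ((((z : ↥(Zgrp K)) : GL I27 K) : Matrix I27 I27 K) - 1).rank := by
  rw [← ev_neg h2 (z := (z : ↥(Zgrp K))) (by rw [← Subgroup.coe_mul, hzz, Subgroup.coe_one]),
    ← ev_V (algebraMap K (AlgebraicClosure K)), map_neg, map_one]
  rfl

variable [Fintype K] (p : ℕ) [Fact p.Prime] [CharP K p]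

theorem cast_ne {m : ℕ} (hm : m.Prime) (hne : p ≠ m) : (m : K) ≠ 0 := fun h =>
  hne ((Nat.prime_dvd_prime_iff_eq Fact.out hm).1 ((CharP.cast_eq_zero_iff K p m).1 h))

theorem cast_ne' {m : ℕ} (hm : m.Prime) (hne : p ≠ m) : (m : AlgebraicClosure K) ≠ 0 := fun h => by
  apply cast_ne (K := K) p hm hne
  apply (algebraMap K (AlgebraicClosure K)).injective
  rw [map_natCast, map_zero, h]

/-- **The dimension is 16 and the representation on the eigenspace is faithful.** -/
theorem setup (hp2 : p ≠ 2) {S : Subgroup ↥(Zgrp K)} {N0 A E : Subgroup ↥S} {z s x r : ↥S}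
    {ψ : ↥A →* Equiv.Perm (Fin 6)} (Kt : Kit N0 A E z s x r ψ) :
    finrank (AlgebraicClosure K) ↥(Module.End.eigenspace (RR K S z) (-1)) = 16 ∧
      (∀ h v, eigRep (RR K S) z (-1) ⟨z, h⟩ v = -v) ∧
      ∀ e (he : e ∈ centralizer ({z} : Set ↥S)), eigRep (RR K S) z (-1) ⟨e, he⟩ = 1 → e = 1 := by
  classical
  have hpp : p.Prime := Fact.out
  have h2 : (2 : K) ≠ 0 := by exact_mod_cast cast_ne (K := K) p Nat.prime_two hp2
  have h2k : (2 : AlgebraicClosure K) ≠ 0 := by exact_mod_cast cast_ne' (K := K) p Nat.prime_two hp2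
  have ho : Odd (Fintype.card K) := by
    obtain ⟨n, -, hn⟩ := FiniteField.card K p
    rw [hn]
    exact (hpp.odd_of_ne_two hp2).pow
  have hzz : z * z = 1 := Kt.z_sq
  have hzzK : (z : ↥(Zgrp K)) * (z : ↥(Zgrp K)) = 1 := by rw [← Subgroup.coe_mul, hzz, Subgroup.coe_one]
  have hz : z ∈ centralizer ({z} : Set ↥S) := mem_centralizer_singleton_iff.2 rfl
  have hρz : ∀ h v, eigRep (RR K S) z (-1) ⟨z, h⟩ v = -v := by
    intro h v
    apply Subtype.ext
    rw [eigRep_apply]
    have h1 := Module.End.mem_eigenspace_iff.1 v.2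
    rw [h1, neg_one_smul]
    rfl
  obtain ⟨i, hi⟩ := IsAlgClosed.exists_pow_nat_eq (-1 : AlgebraicClosure K) (n := 2) (by norm_num)
  have h8 := Cfsg.Agent.H169.Co3.dvd_eight Kt h2k (i := i) (by rw [← pow_two]; exact hi)
    (eigRep (RR K S) z (-1)) hz (hρz hz)
  rw [finrank_eig h2 S hzz] at h8
  have hrk : ((((z : ↥(Zgrp K)) : GL I27 K) : Matrix I27 I27 K) - 1).rank = 16 := by
    rcases Cfsg.Agent.H318.Four.E6Inv.rank_inv ho h2 hzzK with h | h | h
    · exfalso
      apply Kt.z_ne
      apply Subtype.ext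
      apply Subtype.ext
      apply Units.ext
      exact sub_eq_zero.1 (eq_zero_of_rank h)
    · rw [h] at h8
      omega
    · exact h
  refine ⟨by rw [finrank_eig h2 S hzz, hrk], hρz, ?_⟩
  intro e he h1
  apply Subtype.ext
  refine faith ho h2 hzzK hrk ?_ ?_
  · have h4 := mem_centralizer_singleton_iff.1 he
    have h5 := congrArg (fun g : ↥S => (g : ↥(Zgrp K))) h4
    exact h5
  · intro v hv
    have h6 : (fun i => algebraMap K (AlgebraicClosure K) (v i)) ∈ Module.End.eigenspace (RR K S z) (-1) := by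
      rw [Module.End.mem_eigenspace_iff, RR_map, hv]
      funext i
      rw [Pi.neg_apply, map_neg, neg_one_smul, Pi.neg_apply]
    have h7 := (eigRep_apply (RR K S) z (-1) ⟨e, he⟩ ⟨_, h6⟩).symm.trans
      (congrArg Subtype.val (LinearEquiv.congr_fun h1 ⟨_, h6⟩))
    have h8 := (RR_map S e v).symm.trans h7
    funext i
    exact (algebraMap K (AlgebraicClosure K)).injective (congrFun h8 i)

omit [Fintype K] in
/-- the configuration lifts -/
theorem lift_cb [Finite K] {S : Subgroup ↥(Zgrp K)} {G : Type*} [Group G] (f : ↥S →* G)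
    (hf : Function.Surjective f) (hker : ∀ g : ↥S, f g = 1 → ad K (g : ↥(Zgrp K)) = 1)
    {P N0 : Subgroup G} {z s : G} {ψ : ↥(normalizer (P : Set G)) →* Equiv.Perm (Fin 6)} (C : CB P N0 z s ψ) :
    ∃ (Ph Nh : Subgroup ↥S) (zh sh : ↥S) (ψh : ↥(normalizer (Ph : Set ↥S)) →* Equiv.Perm (Fin 6)),
      CB Ph Nh zh sh ψh := by
  have hkp : ∀ g : ↥S, f g = 1 → g ^ 3 = 1 ∧ ∀ x, g * x = x * g := by
    intro g hg
    obtain ⟨ha, hb⟩ := Cfsg.Agent.H65.E6Ext.ker_pow (hker g hg)
    exact ⟨Subtype.ext ha, fun x => Subtype.ext (hb _).symm⟩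
  have hodd : Odd (Nat.card f.ker) := by
    have h1 : IsPGroup 3 f.ker := by
      rintro ⟨g, hg⟩
      exact ⟨1, Subtype.ext (by rw [pow_one]; exact (hkp g hg).1)⟩
    obtain ⟨n, hn⟩ := IsPGroup.iff_card.1 h1
    rw [hn]
    exact (by decide : Odd 3).pow
  obtain ⟨Ph, Nh, zh, sh, ψh, Ch, -⟩ := Cfsg.Agent.H275.Co3.exists_cb f hf (fun g hg => (hkp g hg).2) hodd C
  exact ⟨Ph, Nh, zh, sh, ψh, Ch⟩

/-- the representation of `C(z)` by linear maps -/
noncomputable def eigLin {k M G : Type*} [Field k] [AddCommGroup M] [Module k M] [Group G]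
    (R : Representation k G M) (z : G) (μ : k) : ↥(centralizer ({z} : Set G)) →*
    (↥(Module.End.eigenspace (R z) μ) →ₗ[k] ↥(Module.End.eigenspace (R z) μ)) where
  toFun g := (eigRep R z μ g : ↥(Module.End.eigenspace (R z) μ) →ₗ[k] ↥(Module.End.eigenspace (R z) μ))
  map_one' := by rw [map_one]; rfl
  map_mul' a b := by rw [map_mul]; rfl

/-- **No configuration in a quotient of a subgroup of `Zgrp K` by central scalars, `p ≥ 5`.** -/
theorem kill5 (hp2 : p ≠ 2) (hp3 : p ≠ 3) {S : Subgroup ↥(Zgrp K)} {G : Type*} [Group G] (f : ↥S →* G)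
    (hf : Function.Surjective f) (hker : ∀ g : ↥S, f g = 1 → ad K (g : ↥(Zgrp K)) = 1)
    {P N0 : Subgroup G} {z s : G} {ψ : ↥(normalizer (P : Set G)) →* Equiv.Perm (Fin 6)} (C : CB P N0 z s ψ) :
    False := by
  obtain ⟨Ph, Nh, zh, sh, ψh, Ch⟩ := lift_cb f hf hker C
  obtain ⟨A, E, x, r, ψ', Kt⟩ := Cfsg.Agent.H415.C3.exists_kit Ch
  obtain ⟨h16, hρz, hfaith⟩ := setup p hp2 Kt
  have h2k : (2 : AlgebraicClosure K) ≠ 0 := by exact_mod_cast cast_ne' (K := K) p Nat.prime_two hp2
  have h3k : (3 : AlgebraicClosure K) ≠ 0 := by exact_mod_cast cast_ne' (K := K) p Nat.prime_three hp3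
  refine Cfsg.Agent.H754.Co3.rep16_cent Ch (eigLin (RR K S) zh (-1)) h16 h2k h3k ?_ ?_
  · intro h
    apply LinearMap.ext
    intro v
    exact hρz h v
  · intro g hg _ h1
    refine hfaith g hg ?_
    apply LinearEquiv.ext
    intro v
    exact LinearMap.congr_fun h1 v

end kill

end Cfsg.Agent.H129.Co3
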