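import Cfsg.Agent.H129.Co3.Gen
import Cfsg.Agent.H858.Co3.Eig
import Cfsg.Agent.H944.E6TwC
import Cfsg.Agent.H527.Co3.Asm
import Cfsg.Agent.H738.C3.Char2Rows
import Cfsg.Agent.H415.C3.KitOf

/-!
# S1920, case B: the row `²E₆(q)` (helper129)

`eig_Gs` : the eigenvalues of an element of `Gs φ` on the 27-dimensional module over the algebraic closure are closed
under `l ↦ l ^ (-q)`; `row_te6` : the row.
-/

set_option autoImplicit false
set_option linter.unusedSectionVars false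

open Subgroup Module

universe u

namespace Cfsg.Agent.H129.Co3

open Cfsg Cfsg.Lie
open Cfsg.Agent.ChevalleyStructure
open Cfsg.Agent.ChevalleyStructure.E6Min.Tables Cfsg.Agent.ChevalleyStructure.E6Min.Basic
  Cfsg.Agent.ChevalleyStructure.E6Min.Adjoint
open Cfsg.Agent.H163.E6 (V V')
open Cfsg.Agent.H944.E6T (jm coe_jm jm_injective ev_V gm coe_gm zM_map)
open Cfsg.Agent.H944.E6Tw
open Cfsg.Agent.H952.F4 (ev)
open Cfsg.Agent.H13.Co3 (CB)

/-! ### eigenvalues -/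

theorem jm_sE {F K : Type u} [Field F] [Field K] (f : F →+* K) (φ : F →+* F) (Φ : K →+* K)
    (h : ∀ t, Φ (f t) = f (φ t)) (g : ↥(Zgrp F)) : jm f (sE φ g) = sE Φ (jm f g) := by
  have hz : ∀ (r : Fin 72) (t : F), gm f (zU r.val t) = zU r.val (f t) := by
    intro r t
    apply Units.ext
    rw [coe_gm, coe_zU r.isLt, coe_zU r.isLt, zM_map]
  have h1 : (jm f).comp (sE φ) = (sE Φ).comp (jm f) := by
    apply hom_ext
    intro r t
    apply Subtype.ext
    show gm f (sZ φ (zU r.val t)) = sZ Φ (gm f (zU r.val t))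
    rw [sZ_zU, hz, hz, sZ_zU, map_mul, map_intCast, h]
  exact DFunLike.congr_fun h1 g

theorem hasEigenvalue_iff_ev {F : Type u} [Field F] {T : Module.End F (I27 → F)} {l : F} :
    T.HasEigenvalue l ↔ ev T l ≠ 0 := by
  rw [Module.End.hasEigenvalue_iff]
  unfold ev
  rw [Ne, Ne, Submodule.finrank_eq_zero]

theorem V_ne_zero {F : Type u} [Field F] (g : ↥(Zgrp F)) {l : F} (hl : Module.End.HasEigenvalue (V F g) l) : l ≠ 0 := by
  rintro rfl
  obtain ⟨v, hv, hv0⟩ := hl.exists_hasEigenvector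
  rw [Module.End.mem_eigenspace_iff, zero_smul] at hv
  apply hv0
  have h1 : V F g⁻¹ (V F g v) = v := by
    rw [← Module.End.mul_apply, ← map_mul, inv_mul_cancel, map_one, Module.End.one_apply]
  rw [← h1, hv, map_zero]

theorem eig_semi {F : Type u} [Field F] (Φ : F →+* F) {g : ↥(Zgrp F)} (hg : g ∈ Gs Φ) {l : F}
    (hl : Module.End.HasEigenvalue (V F g) l) : Module.End.HasEigenvalue (V F g) (Φ l)⁻¹ := by
  obtain ⟨v, hv, hv0⟩ := hl.exists_hasEigenvector
  rw [Module.End.mem_eigenspace_iff] at hv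
  have hl0 := V_ne_zero g hl
  have h1 : V' F g (J Φ v) = Φ l • J Φ v := by rw [V'_J Φ hg, hv, J_smul]
  have h2 : J Φ v ≠ 0 := by
    intro h
    apply hv0
    funext i
    have h3 := congrFun h i
    rw [J_apply, Pi.zero_apply] at h3
    have h4 : ((qe i : ℤ) : F) * ((qe i : ℤ) : F) = 1 := by
      rw [← Int.cast_mul, qe_sq, Int.cast_one]
    rcases mul_eq_zero.1 h3 with h5 | h5
    · rw [h5, zero_mul] at h4
      exact absurd h4 zero_ne_one
    · exact (map_eq_zero Φ).1 h5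
  have h5 : ev (V' F g) (Φ l) ≠ 0 :=
    hasEigenvalue_iff_ev.1 (Module.End.hasEigenvalue_of_hasEigenvector ⟨Module.End.mem_eigenspace_iff.2 h1, h2⟩)
  rw [Cfsg.Agent.H163.E6.Act.ev_dual g ((map_ne_zero Φ).2 hl0)] at h5
  exact hasEigenvalue_iff_ev.2 h5

section row

variable {K : Type} [Field K] [Fintype K] {q : ℕ} {φ : K →+* K}

theorem eig_Gs (p n : ℕ) [Fact p.Prime] [CharP K p] (hqn : q = p ^ n) (hφ : ∀ t, φ t = t ^ q) {g : ↥(Zgrp K)}
    (hg : g ∈ Gs φ) {l : AlgebraicClosure K}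
    (hl : Module.End.HasEigenvalue (V (AlgebraicClosure K) (jm (algebraMap K (AlgebraicClosure K)) g)) l) :
    Module.End.HasEigenvalue (V (AlgebraicClosure K) (jm (algebraMap K (AlgebraicClosure K)) g)) (l ^ (-(q : ℤ))) := by
  have : CharP (AlgebraicClosure K) p := charP_of_injective_algebraMap (algebraMap K (AlgebraicClosure K)).injective p
  have h1 : ∀ t : AlgebraicClosure K, iterateFrobenius (AlgebraicClosure K) p n t = t ^ q := fun t => by
    rw [iterateFrobenius_def, hqn]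
  have h2 : jm (algebraMap K (AlgebraicClosure K)) g ∈ Gs (iterateFrobenius (AlgebraicClosure K) p n) := by
    rw [mem_Gs, ← jm_sE (algebraMap K (AlgebraicClosure K)) φ _ (fun t => by rw [h1, hφ, map_pow]), (mem_Gs φ).1 hg]
  have h3 := eig_semi _ h2 hl
  rw [h1] at h3
  rwa [zpow_neg, zpow_natCast]

/-- the covering map of `²E₆(q)` -/
noncomputable def toTw (hq : IsPrimePow q) (hF : Fintype.card K = q ^ 2) (hφ : ∀ t, φ t = t ^ q)
    (hqq : ∀ t : K, (t ^ q) ^ q = t) : ↥(Gs φ) →* ↥(twistedE6 K q) :=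
  (((chevE6.group K).subtype.comp (ad K)).comp (Gs φ).subtype).codRestrict (twistedE6 K q) fun g =>
    mem_Gl.1 (Gs_le_Gl hq hF hφ hqq g.2)

theorem coe_toTw (hq : IsPrimePow q) (hF : Fintype.card K = q ^ 2) (hφ : ∀ t, φ t = t ^ q)
    (hqq : ∀ t : K, (t ^ q) ^ q = t) (g : ↥(Gs φ)) : ((toTw hq hF hφ hqq g : ↥(twistedE6 K q)) : GL chevE6.Idx K) =
      ((ad K (g : ↥(Zgrp K)) : ↥(chevE6.group K)) : GL chevE6.Idx K) := rfl

theorem toTw_surjective (hq : IsPrimePow q) (hF : Fintype.card K = q ^ 2) (hφ : ∀ t, φ t = t ^ q)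
    (hqq : ∀ t : K, (t ^ q) ^ q = t) : Function.Surjective (toTw hq hF hφ hqq) := by
  intro y
  obtain ⟨g, hg, h⟩ := exists_Gs φ hφ hqq y.2
  exact ⟨⟨g, hg⟩, Subtype.ext h⟩

theorem three_pow_mod (n : ℕ) : 3 ^ n % 20 = 1 ∨ 3 ^ n % 20 = 3 ∨ 3 ^ n % 20 = 9 ∨ 3 ^ n % 20 = 7 := by
  induction n with
  | zero => left; rfl
  | succ n ih => rw [pow_succ]; omega

/-- **No configuration in a quotient of a subgroup of `Zgrp K` by central scalars, `p = 3`**, if the eigenvalues are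
closed under `l ↦ l ^ e` for a suitable `e`. -/
theorem kill3 (p : ℕ) [Fact p.Prime] [CharP K p] (hp3 : p = 3) {S : Subgroup ↥(Zgrp K)} {G : Type*} [Group G]
    (f : ↥S →* G) (hf : Function.Surjective f) (hker : ∀ g : ↥S, f g = 1 → ad K (g : ↥(Zgrp K)) = 1)
    {P N0 : Subgroup G} {z s : G} {ψ : ↥(normalizer (P : Set G)) →* Equiv.Perm (Fin 6)} (C : CB P N0 z s ψ)
    {e : ℤ} (he : (e % 4 = 1 ∧ e % 5 ≠ 1 ∧ e % 5 ≠ 4) ∨ (e % 4 = 3 ∧ e % 5 ≠ 2 ∧ e % 5 ≠ 3))
    (hself : ∀ (g : ↥S) (l : AlgebraicClosure K), Module.End.HasEigenvalue (RR K S g) l →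
      Module.End.HasEigenvalue (RR K S g) (l ^ e)) : False := by
  obtain ⟨Ph, Nh, zh, sh, ψh, Ch⟩ := lift_cb f hf hker C
  obtain ⟨A, E, x, r, ψ', Kt⟩ := Cfsg.Agent.H415.C3.exists_kit Ch
  obtain ⟨h16, hρz, hfaith⟩ := setup p (by rw [hp3]; norm_num) Kt
  have h2k : (2 : AlgebraicClosure K) ≠ 0 := by
    exact_mod_cast cast_ne' (K := K) p Nat.prime_two (by rw [hp3]; norm_num)
  have h5k : (5 : AlgebraicClosure K) ≠ 0 := by
    exact_mod_cast cast_ne' (K := K) p (by norm_num : (5 : ℕ).Prime) (by rw [hp3]; norm_num)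
  have heo : Odd e := by
    rw [Int.odd_iff]
    rcases he with h | h <;> omega
  refine Cfsg.Agent.H858.Co3.eig_ne5 Kt (eigRep (RR K S) zh (-1)) h16 h2k h5k
    (mem_centralizer_singleton_iff.2 rfl) (hρz _) (fun e he _ h1 => hfaith e he h1) e he ?_
  rintro g ⟨m, hm⟩ - l hl
  exact eig_transfer (RR K S) zh hm heo (hself (g : ↥S)) hl

/-- **No configuration in `²E₆(q)`, `q` odd.** -/
theorem no_te6 (p : ℕ) [Fact p.Prime] [CharP K p] (hp2 : p ≠ 2) (hq : IsPrimePow q)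
    (hF : Fintype.card K = q ^ 2) {G : Type u} [Group G] (e : G ≃* twistedE6 K q) {P N0 : Subgroup G} {z s : G}
    {ψ : ↥(normalizer (P : Set G)) →* Equiv.Perm (Fin 6)} (C : CB P N0 z s ψ) : False := by
  obtain ⟨φ, hφ, hqq⟩ := TwE6Basic.exists_frob hq hF
  have hs : Function.Surjective ((e.symm : ↥(twistedE6 K q) →* G).comp (toTw hq hF hφ hqq)) :=
    e.symm.surjective.comp (toTw_surjective hq hF hφ hqq)
  have hk : ∀ g : ↥(Gs φ), ((e.symm : ↥(twistedE6 K q) →* G).comp (toTw hq hF hφ hqq)) g = 1 →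
      ad K (g : ↥(Zgrp K)) = 1 := by
    intro g hg
    have h1 : toTw hq hF hφ hqq g = 1 := e.symm.injective (by rw [map_one]; exact hg)
    apply Subtype.ext
    have h2 := congrArg (fun y : ↥(twistedE6 K q) => (y : GL chevE6.Idx K)) h1
    exact h2
  by_cases hp3 : p = 3
  · obtain ⟨n, hn⟩ : ∃ n, q = p ^ n := by
      obtain ⟨p', n, hp', hn0, hpn⟩ := (isPrimePow_nat_iff _).1 hq
      have hpp : p.Prime := Fact.out
      obtain ⟨m, hm⟩ := FiniteField.card K p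
      have h1 : p' ∣ p ^ (m : ℕ) := by
        rw [← hm.2, hF, ← hpn, ← pow_mul]
        exact dvd_pow_self _ (by omega)
      have h2 : p' = p := (Nat.prime_dvd_prime_iff_eq hp' hpp).1 (hp'.dvd_of_dvd_pow h1)
      exact ⟨n, by rw [← hpn, h2]⟩
    refine kill3 p hp3 _ hs hk C (e := -(q : ℤ)) ?_ (fun g l hl => eig_Gs p n hn hφ g.2 hl)
    have h3 := three_pow_mod n
    rw [hp3] at hn
    rw [← hn] at h3
    omega
  · exact kill5 p hp2 hp3 _ hs hk C

end row

/-- **The row `²E₆(q)`.** -/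
theorem row_te6 : Cfsg.Agent.H527.Co3.Row.{u} @Lie.Iso2E6 := by
  intro G _ _ _ h P N0 z s ψ C
  obtain ⟨K, _, _, q, hq, hF, ⟨e⟩⟩ := h
  obtain ⟨p, hp⟩ := CharP.exists K
  have hpp : Fact p.Prime := ⟨(CharP.char_is_prime_or_zero K p).resolve_right (CharP.char_ne_zero_of_finite K p)⟩
  by_cases hp2 : p = 2
  · subst hp2
    exact Cfsg.Agent.H738.C3.false_of_lieTwo C
      (Or.inr (Or.inr (Or.inr (Or.inr (Or.inr (Or.inr (Or.inr (Or.inl
        ⟨K, inferInstance, inferInstance, hp, q, hq, Or.inl ⟨hF, ⟨e⟩⟩⟩))))))))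
  · exact no_te6 p hp2 hq hF e C

end Cfsg.Agent.H129.Co3
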